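import Cfsg.Agent.H664.L34.Tab
import Cfsg.Agent.H81.RankTwo
import Cfsg.Agent.H939.L64.Base

/-!
# S5917: the rank of `ad v` for `v` a sum of root vectors and an element of the Cartan subalgebra (helper664)
-/

set_option autoImplicit false
set_option maxRecDepth 100000

namespace Cfsg.Agent.H664.L34

open Cfsg Cfsg.Lie
open Cfsg.Agent.ChevalleyStructure.Columns (car cor)
open Cfsg.Agent.ChevalleyStructure.SparseAct (code code_lt code_inl code_inr code_injective exists_code)
open Cfsg.Agent.H939.L64 (KK LK brK brL brL_apply aK)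
open Cfsg.Agent.H413.L16 (er hv hr tg row okRow okRow_spec nr rk8 br_rr br_neg br_hv br_hh br_comm br_er_hv er_of er_ge
  tg_le single_eq cast_odd cast_even cast_congr hr_neg)
open Cfsg.Agent.H81.RankTwo hiding cast_odd cast_even

/-! ### the packed rows -/

/-- the byte of a packed row -/
def byt (R s : ℕ) : ℕ := (R >>> (8 * s)) % 256

theorem byt_xor (a b s : ℕ) : byt (a ^^^ b) s = byt a s ^^^ byt b s := by
  unfold byt
  rw [Nat.shiftRight_xor_distrib, show (256 : ℕ) = 2 ^ 8 from rfl, Nat.xor_mod_two_pow]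

theorem byt_shift {c : ℕ} (hc : c < 256) (t s : ℕ) : byt (c <<< (8 * t)) s = if t = s then c else 0 := by
  unfold byt
  rw [show (256 : ℕ) = 2 ^ 8 from rfl]
  apply Nat.eq_of_testBit_eq
  intro i
  rw [Nat.testBit_mod_two_pow, Nat.testBit_shiftRight, Nat.testBit_shiftLeft]
  by_cases h : t = s
  · subst h
    rw [if_pos rfl]
    by_cases hi : i < 8
    · simp [hi]
    · have h2 : c.testBit i = false := Nat.testBit_lt_two_pow (lt_of_lt_of_le hc (by
        calc (256 : ℕ) = 2 ^ 8 := rfl
          _ ≤ 2 ^ i := Nat.pow_le_pow_right (by norm_num) (by omega)))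
      rw [h2]
      simp [hi]
  · rw [if_neg h, Nat.zero_testBit]
    by_cases hi : i < 8
    · by_cases h1 : 8 * t ≤ 8 * s + i
      · have h2 : c.testBit (8 * s + i - 8 * t) = false := Nat.testBit_lt_two_pow (lt_of_lt_of_le hc (by
          calc (256 : ℕ) = 2 ^ 8 := rfl
            _ ≤ 2 ^ (8 * s + i - 8 * t) := Nat.pow_le_pow_right (by norm_num) (by omega)))
        simp [h2]
      · simp [h1]
    · simp [hi]

theorem mkrow_spec (s : ℕ) (hs : s < 240) : ∀ l : List (ℕ × Array (ℕ × ℤ)),
    (l.all fun e => decide (e.1 < 240) && decide ((e.2.getD 0 (240, 0)).1 < 240)) = true →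
    ((l.zip l.tail).all fun p => decide (p.1.1 < p.2.1)) = true →
    byt (mkrow l) s = (l.find? fun e => e.1 == s).elim 240 fun e => (e.2.getD 0 (240, 0)).1 := by
  have hb : byt BASE s = 240 := by
    have := List.all_eq_true.1 base_chk s (List.mem_range.2 hs)
    exact Nat.eq_of_beq_eq_true this
  have key : ∀ (l : List (ℕ × Array (ℕ × ℤ))) (a : ℕ × Array (ℕ × ℤ)),
      (((a :: l).zip l).all fun p => decide (p.1.1 < p.2.1)) = true → ∀ e ∈ l, a.1 < e.1 := by
    intro l
    induction l with
    | nil => intro a _ e he; exact absurd he (by simp)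
    | cons b l ih =>
      intro a h e he
      rw [List.zip_cons_cons, List.all_cons, Bool.and_eq_true, decide_eq_true_eq] at h
      rcases List.mem_cons.1 he with rfl | he
      · exact h.1
      · exact h.1.trans (ih b h.2 e he)
  have nf : ∀ l : List (ℕ × Array (ℕ × ℤ)),
      (l.all fun e => decide (e.1 < 240) && decide ((e.2.getD 0 (240, 0)).1 < 240)) = true → (∀ e ∈ l, e.1 ≠ s) →
      byt (mkrow l) s = 240 := by
    intro l
    induction l with
    | nil => intro _ _; exact hb
    | cons a l ih =>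
      intro h1 h2
      rw [List.all_cons, Bool.and_eq_true, Bool.and_eq_true, decide_eq_true_eq, decide_eq_true_eq] at h1
      rw [mkrow, byt_xor, ih h1.2 fun e he => h2 e (by simp [he]), byt_shift, if_neg (h2 a (by simp)), Nat.zero_xor]
      exact Nat.xor_lt_two_pow (n := 8) (by norm_num) (lt_trans h1.1.2 (by norm_num))
  intro l
  induction l with
  | nil => intro _ _; exact hb
  | cons a l ih =>
    intro h1 h2
    rw [List.tail_cons] at h2
    have hk := key l a h2
    have h1' := h1
    rw [List.all_cons, Bool.and_eq_true, Bool.and_eq_true, decide_eq_true_eq, decide_eq_true_eq] at h1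
    have hlt : (240 ^^^ (a.2.getD 0 (240, 0)).1) < 256 :=
      Nat.xor_lt_two_pow (n := 8) (by norm_num) (lt_trans h1.1.2 (by norm_num))
    have h' : ((l.zip l.tail).all fun p => decide (p.1.1 < p.2.1)) = true := by
      cases l with
      | nil => rfl
      | cons b l =>
        rw [List.zip_cons_cons, List.all_cons, Bool.and_eq_true] at h2
        exact h2.2
    by_cases hs' : a.1 = s
    · rw [List.find?_cons_of_pos (by simpa using hs'), mkrow, byt_xor, byt_shift hlt, if_pos hs',
        nf l h1.2 fun e he h3 => absurd (hk e he) (by omega)]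
      show 240 ^^^ (a.2.getD 0 (240, 0)).1 ^^^ 240 = (a.2.getD 0 (240, 0)).1
      rw [Nat.xor_comm, ← Nat.xor_assoc, Nat.xor_self, Nat.zero_xor]
    · rw [List.find?_cons_of_neg (by simpa using hs'), mkrow, byt_xor, byt_shift hlt, if_neg hs', Nat.zero_xor]
      exact ih h1.2 h'

theorem byt_row {t s : ℕ} (ht : t < 240) (hs : s < 240) : byt (ROW.getD t 0) s = tg t s := by
  have h0 := Nat.eq_of_beq_eq_true (List.all_eq_true.1 row_chk t (List.mem_range.2 ht))
  have h := okRow_spec ht
  unfold okRow at h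
  rw [Bool.and_eq_true] at h
  obtain ⟨h1, h2⟩ := h
  rw [h0]
  refine mkrow_spec s hs _ ?_ h2
  rw [List.all_eq_true] at h1 ⊢
  intro e he
  have := h1 e he
  simp only [Bool.and_eq_true, decide_eq_true_eq] at this ⊢
  exact ⟨this.1.1.1.1.1, this.1.2⟩

/-! ### masks -/

instance : CharP KK 2 := Cfsg.Agent.H413.L64.charKK

/-- the 0/1 vector of a mask -/
noncomputable def vm (m : ℕ) : LK := vec chevE8 KK m

theorem vm_xor (a b : ℕ) : vm (a ^^^ b) = vm a + vm b := vec_xor chevE8 KK a b

theorem vm_zero : vm 0 = 0 := vec_zero chevE8 KK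

theorem N_eq : N chevE8 = 248 := by decide +kernel

theorem vm_apply (m : ℕ) (i : chevE8.Idx) : vm m i = if m.testBit (code chevE8 i) then 1 else 0 := rfl

theorem vm_mod (m : ℕ) : vm (m % 2 ^ 248) = vm m := by
  funext i
  rw [vm_apply, vm_apply, Nat.testBit_mod_two_pow]
  have : code chevE8 i < 248 := by rw [← N_eq]; exact code_lt chevE8 i
  simp [this]

theorem vm_er {s : ℕ} (hs : s ≤ 240) : vm (1 <<< (8 + s)) = er s := by
  rcases Nat.lt_or_ge s 240 with h | h
  · have h' : s < chevE8.nroots := by rw [nr]; exact h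
    rw [er_of h', ← vec_single (D := chevE8) (K := KK), code_inr, rk8]
    rfl
  · obtain rfl : s = 240 := le_antisymm hs h
    rw [er_ge le_rfl]
    funext i
    have h1 : code chevE8 i < 248 := by rw [← N_eq]; exact code_lt chevE8 i
    rw [vm_apply, testBit_one_shiftLeft, Pi.zero_apply, if_neg]
    simp
    omega

theorem vm_hv {m : ℕ} (hm : m < 256) : vm m = hv fun i => if m.testBit i then 1 else 0 := by
  funext i
  rcases i with i | s
  · rfl
  · rw [vm_apply, code_inr, if_neg]
    · rfl
    · have h8 : 8 ≤ chevE8.rank + s.val := by rw [rk8]; omega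
      rw [Nat.testBit_lt_two_pow (lt_of_lt_of_le hm (by
        calc (256 : ℕ) = 2 ^ 8 := rfl
          _ ≤ 2 ^ (chevE8.rank + s.val) := Nat.pow_le_pow_right (by norm_num) h8))]
      simp

theorem hm_lt {t : ℕ} (ht : t < 240) : HML.getD t 0 < 256 := by
  have := List.all_eq_true.1 (List.all_eq_true.1 hm_tab t (List.mem_range.2 ht)) 0 (by simp)
  rw [Bool.and_eq_true] at this
  simpa [Nat.blt_eq] using this.1

theorem hm_bit {t : ℕ} (ht : t < 240) {i : ℕ} (hi : i < 8) :
    (HML.getD t 0).testBit i = decide (cor chevE8 t i % 2 ≠ 0) := by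
  have := List.all_eq_true.1 (List.all_eq_true.1 hm_tab t (List.mem_range.2 ht)) i (List.mem_range.2 hi)
  rw [Bool.and_eq_true] at this
  simpa using this.2

theorem cm_lt {t : ℕ} (ht : t < 240) : CML.getD t 0 < 256 := by
  have := List.all_eq_true.1 (List.all_eq_true.1 cm_tab t (List.mem_range.2 ht)) 0 (by simp)
  rw [Bool.and_eq_true] at this
  simpa [Nat.blt_eq] using this.1

theorem cm_bit {t : ℕ} (ht : t < 240) {i : ℕ} (hi : i < 8) :
    (CML.getD t 0).testBit i = decide (car chevE8 i t % 2 ≠ 0) := by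
  have := List.all_eq_true.1 (List.all_eq_true.1 cm_tab t (List.mem_range.2 ht)) i (List.mem_range.2 hi)
  rw [Bool.and_eq_true] at this
  simpa using this.2

theorem cast_bit (a : ℤ) : (a : KK) = if decide (a % 2 ≠ 0) then 1 else 0 := by
  by_cases h : a % 2 = 0
  · rw [cast_even h]; simp [h]
  · rw [cast_odd h]; simp [h]

theorem hr_mask {t : ℕ} (ht : t < 240) : hr t = vm (HML.getD t 0) := by
  rw [vm_hv (hm_lt ht)]
  unfold Cfsg.Agent.H413.L16.hr
  congr 1
  funext i
  have hi : (i : ℕ) < 8 := lt_of_lt_of_eq i.2 rk8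
  rw [hm_bit ht hi, ← cast_bit]

/-! ### the bracket with a root vector -/

/-- the term `[e_s, e_t]` -/
def bt (R h t s : ℕ) : ℕ := bif Nat.beq (s + t) 239 then h else 1 <<< (8 + byt R s)

/-- `∑ [e_s, e_t]` -/
def bs (R h t : ℕ) : List ℕ → ℕ
  | [] => 0
  | s :: L => bt R h t s ^^^ bs R h t L

theorem bt_spec {s t : ℕ} (hs : s < 240) (ht : t < 240) :
    brK (er s) (er t) = vm (bt (ROW.getD t 0) (HML.getD t 0) t s) := by
  unfold bt
  by_cases h : s + t = 239
  · have h1 : Nat.beq (s + t) 239 = true := by rw [h]; rfl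
    rw [h1, cond_true]
    obtain rfl : s = 239 - t := by omega
    rw [br_comm, br_neg ht, hr_mask ht]
  · have h1 : Nat.beq (s + t) 239 = false := by
      rw [← Bool.not_eq_true]
      intro h2
      exact h (Nat.eq_of_beq_eq_true h2)
    rw [h1, cond_false, byt_row ht hs, br_comm, br_rr ht hs (by omega), vm_er (tg_le ht s)]

theorem bs_spec {t : ℕ} (ht : t < 240) : ∀ L : List ℕ, (∀ s ∈ L, s < 240) →
    brK (L.map er).sum (er t) = vm (bs (ROW.getD t 0) (HML.getD t 0) t L) := by
  intro L
  induction L with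
  | nil =>
    intro _
    rw [List.map_nil, List.sum_nil, bs, vm_zero, ← brL_apply, map_zero, LinearMap.zero_apply]
  | cons s L ih =>
    intro h
    rw [List.map_cons, List.sum_cons, bs, vm_xor, ← ih fun x hx => h x (by simp [hx]), ← bt_spec (h s (by simp)) ht,
      ← brL_apply, map_add, LinearMap.add_apply, brL_apply, brL_apply]

/-- the parity of a byte -/
def PT : ℕ := 0x6996966996696996966969966996966996696996699696696996966996696996

/-- the parity -/
def par8 (x : ℕ) : Bool := PT.testBit x

theorem par8_spec : ∀ x < 256, ((List.range 8).map fun i => if x.testBit i then (1 : ℤ) else 0).sum % 2 =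
    if par8 x then 1 else 0 := by
  decide +kernel

/-- the term `[h(c), e_t]` -/
def ht (c t : ℕ) : ℕ := bif par8 (c &&& CML.getD t 0) then 1 <<< (8 + t) else 0

theorem ht_spec {c t : ℕ} (ht' : t < 240) : brK (hv fun i => if c.testBit i then 1 else 0) (er t) = vm (ht c t) := by
  rw [br_hv _ ht']
  have h1 : (∑ i : Fin chevE8.rank, (if c.testBit i then (1 : KK) else 0) * ((car chevE8 i t : ℤ) : KK)) =
      if par8 (c &&& CML.getD t 0) then 1 else 0 := by
    have hx : (c &&& CML.getD t 0) < 256 := lt_of_le_of_lt Nat.and_le_right (cm_lt ht')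
    have h2 := par8_spec _ hx
    have h3 : ∀ i : Fin chevE8.rank, (if c.testBit i then (1 : KK) else 0) * ((car chevE8 i t : ℤ) : KK) =
        ((if (c &&& CML.getD t 0).testBit i then (1 : ℤ) else 0 : ℤ) : KK) := by
      intro i
      have hi : (i : ℕ) < 8 := lt_of_lt_of_eq i.2 rk8
      rw [cast_bit, ← cm_bit ht' hi, Nat.testBit_and]
      cases c.testBit i <;> cases (CML.getD t 0).testBit i <;> simp
    rw [Finset.sum_congr rfl fun i _ => h3 i, ← Int.cast_sum]
    have h4 : (∑ i : Fin chevE8.rank, (if (c &&& CML.getD t 0).testBit i then (1 : ℤ) else 0)) =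
        ((List.range 8).map fun i => if (c &&& CML.getD t 0).testBit i then (1 : ℤ) else 0).sum := by
      rw [← Finset.sum_range fun i => if (c &&& CML.getD t 0).testBit i then (1 : ℤ) else 0, rk8]
      rfl
    rw [h4]
    by_cases h5 : par8 (c &&& CML.getD t 0) = true
    · rw [if_pos h5] at h2 ⊢
      exact cast_odd (by rw [h2]; norm_num)
    · rw [if_neg h5] at h2 ⊢
      exact cast_even h2
  rw [h1]
  unfold ht
  by_cases h5 : par8 (c &&& CML.getD t 0) = true
  · rw [h5, if_pos rfl, one_smul, cond_true, vm_er ht'.le]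
  · rw [Bool.not_eq_true] at h5
    rw [h5, cond_false, vm_zero]
    simp

/-- the sum of the root vectors of `L` and the element of the Cartan subalgebra of the mask `c` -/
noncomputable def vl (c : ℕ) (L : List ℕ) : LK := hv (fun i => if c.testBit i then 1 else 0) + (L.map er).sum

/-- the mask of `[vl c L, e_t]` -/
def cR (c : ℕ) (L : List ℕ) (R t : ℕ) : ℕ := (bs R (HML.getD t 0) t L % 2 ^ 248) ^^^ ht c t

theorem cR_spec {c t : ℕ} {L : List ℕ} (hL : ∀ s ∈ L, s < 240) (ht' : t < 240) :
    brK (vl c L) (er t) = vm (cR c L (ROW.getD t 0) t) := by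
  unfold vl cR
  rw [vm_xor, vm_mod, ← bs_spec ht' L hL, ← ht_spec ht', ← brL_apply, map_add, LinearMap.add_apply, brL_apply, brL_apply,
    add_comm]

/-- the mask of `[vl c L, h_i]` -/
def cH (i : ℕ) : List ℕ → ℕ
  | [] => 0
  | s :: L => (bif (CML.getD s 0).testBit i then 1 <<< (8 + s) else 0) ^^^ cH i L

theorem cH_spec {c : ℕ} (i : Fin chevE8.rank) : ∀ L : List ℕ, (∀ s ∈ L, s < 240) →
    brK (vl c L) (hv (Pi.single i 1)) = vm (cH i L) := by
  intro L hL
  unfold vl
  rw [← brL_apply, map_add, LinearMap.add_apply, brL_apply, brL_apply, br_hh, zero_add]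
  induction L with
  | nil => rw [List.map_nil, List.sum_nil, cH, vm_zero, ← brL_apply, map_zero, LinearMap.zero_apply]
  | cons s L ih =>
    have hs := hL s (by simp)
    have hi : (i : ℕ) < 8 := lt_of_lt_of_eq i.2 rk8
    rw [List.map_cons, List.sum_cons, ← brL_apply, map_add, LinearMap.add_apply, brL_apply, brL_apply,
      ih fun x hx => hL x (by simp [hx]), cH, vm_xor]
    congr 1
    rw [br_er_hv _ hs, Finset.sum_eq_single i]
    · rw [Pi.single_eq_same, one_mul, cast_bit, ← cm_bit hs hi]
      cases (CML.getD s 0).testBit i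
      · rw [cond_false, vm_zero]; simp
      · rw [cond_true, vm_er hs.le]; simp
    · intro b _ hb
      rw [Pi.single_eq_of_ne hb, zero_mul]
    · intro h; exact absurd (Finset.mem_univ _) h

/-- the masks of the brackets with the root vectors -/
def colR (c : ℕ) (L : List ℕ) : List ℕ → ℕ → List ℕ
  | [], _ => []
  | R :: RS, t => cR c L R t :: colR c L RS (t + 1)

/-- the masks of the brackets with all basis vectors -/
def colA (c : ℕ) (L : List ℕ) : List ℕ := colR c L ROW 0 ++ (List.range 8).map fun i => cH i L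

theorem mem_colR {c : ℕ} {L : List ℕ} : ∀ (RS : List ℕ) (t m : ℕ),
    m ∈ colR c L RS t ↔ ∃ s < RS.length, m = cR c L (RS.getD s 0) (t + s) := by
  intro RS
  induction RS with
  | nil => intro t m; simp [colR]
  | cons R RS ih =>
    intro t m
    rw [colR, List.mem_cons, ih]
    constructor
    · rintro (rfl | ⟨s, hs, rfl⟩)
      · exact ⟨0, by simp, rfl⟩
      · refine ⟨s + 1, by simpa using hs, ?_⟩
        rw [List.getD_cons_succ, show t + 1 + s = t + (s + 1) by omega]
    · rintro ⟨s, hs, rfl⟩
      rcases s with _ | s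
      · left; rfl
      · right
        refine ⟨s, by simpa using hs, ?_⟩
        rw [List.getD_cons_succ, show t + 1 + s = t + (s + 1) by omega]

theorem range_ad {c : ℕ} {L : List ℕ} (hL : ∀ s ∈ L, s < 240) :
    LinearMap.range (brL (vl c L)) = spanL chevE8 KK (colA c L) := by
  have h1 : LinearMap.range (brL (vl c L)) =
      Submodule.span KK (Set.range fun k : chevE8.Idx => brL (vl c L) (Pi.single k 1)) := by
    rw [LinearMap.range_eq_map, ← (Pi.basisFun KK chevE8.Idx).span_eq, Submodule.map_span, ← Set.range_comp]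
    congr 2
    funext k
    rw [Function.comp_apply, Pi.basisFun_apply]
  rw [h1]
  unfold spanL
  congr 1
  ext v
  constructor
  · rintro ⟨k, rfl⟩
    rcases k with i | s
    · refine ⟨cH i L, ?_, ?_⟩
      · unfold colA
        rw [List.mem_append]
        exact Or.inr (List.mem_map.2 ⟨i, List.mem_range.2 (lt_of_lt_of_eq i.2 rk8), rfl⟩)
      · show brL (vl c L) (Pi.single (Sum.inl i) 1) = _
        rw [single_eq]
        exact cH_spec i L hL
    · have hs : (s : ℕ) < 240 := lt_of_lt_of_eq s.2 nr
      refine ⟨cR c L (ROW.getD s 0) s, ?_, ?_⟩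
      · unfold colA
        rw [List.mem_append, mem_colR]
        exact Or.inl ⟨s, by rw [row_len]; exact hs, by rw [zero_add]⟩
      · show brL (vl c L) (Pi.single (Sum.inr s) 1) = _
        rw [single_eq]
        exact cR_spec hL hs
  · rintro ⟨m, hm, rfl⟩
    unfold colA at hm
    rw [List.mem_append, mem_colR, List.mem_map] at hm
    rcases hm with ⟨s, hs, rfl⟩ | ⟨i, hi, rfl⟩
    · rw [row_len] at hs
      have hs' : s < chevE8.nroots := by rw [nr]; exact hs
      refine ⟨Sum.inr ⟨s, hs'⟩, ?_⟩
      show brL (vl c L) (Pi.single (Sum.inr ⟨s, hs'⟩) 1) = _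
      rw [single_eq, zero_add]
      exact cR_spec hL hs
    · have hi' : i < chevE8.rank := by rw [rk8]; exact List.mem_range.1 hi
      refine ⟨Sum.inl ⟨i, hi'⟩, ?_⟩
      show brL (vl c L) (Pi.single (Sum.inl ⟨i, hi'⟩) 1) = _
      rw [single_eq]
      exact cH_spec ⟨i, hi'⟩ L hL

/-- the check -/
def rkad (c : ℕ) (L : List ℕ) (k : ℕ) : Bool :=
  (L.all fun s => Nat.blt s 240) &&
    ((elim (colA c L)).all (fun b => Nat.blt b.1 (N chevE8)) && Nat.beq (elim (colA c L)).length k)

/-- **the rank of `ad v`** -/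
theorem rank_ad {c : ℕ} {L : List ℕ} {k : ℕ} (h : rkad c L k = true) :
    Module.finrank KK ↥(LinearMap.range (brL (vl c L))) = k := by
  unfold rkad at h
  rw [Bool.and_eq_true, Bool.and_eq_true, List.all_eq_true] at h
  obtain ⟨h1, h2, h3⟩ := h
  rw [range_ad fun s hs => by simpa [Nat.blt_eq] using h1 s hs, finrank_spanL h2]
  exact Nat.eq_of_beq_eq_true h3

end Cfsg.Agent.H664.L34
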